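import Mathlib
import Cfsg.Agent.Lib.Helper6.OA.ClsGen
import Cfsg.Agent.Lib.Helper49.GamO8
import Cfsg.Agent.Lib.Helper18.AutPSL.FieldCent

set_option autoImplicit false
set_option linter.unusedSectionVars false

/-!
# The centraliser of a standard field automorphism in a group of similarity-induced automorphisms

General quadratic form `Q` on `ι → F` whose coefficients are fixed by `σ`; subfield form `Q₀`.
-/

namespace Cfsg.Agent.Lib.Helper59.OMinus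

open Matrix QuadraticMap Module
open Cfsg.Agent.Lib.Helper6.OA Cfsg.Agent.Lib.Helper49
open Cfsg.Agent.Lib.Helper18.AutPSL (mp mp_apply mp_eq_map mp_one mp_smul nrmS hilbert90_one mp_pow_of_smul)

variable {ι : Type} [Fintype ι] [DecidableEq ι] {F : Type*} [Field F]

section fn

variable (Q : (ι → F) → F)

theorem cG_eq_cGam (g : ↥(GO Q)) : cG Q g = cGam Q (goIncl Q g) :=
  eq_cGam_of_induced Q (goIncl Q g) _ (induced_cG Q g)

/-- the pair `(1, σ)` -/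
def fs (σ : F ≃+* F) (hσ : ∀ v : ι → F, Q (fun i => σ (v i)) = σ (Q v)) : ↥(GamO Q) :=
  ⟨SemidirectProduct.inr σ, ⟨1, fun v => by simpa using hσ v⟩⟩

/-- the standard field automorphism -/
def fl (σ : F ≃+* F) (hσ : ∀ v : ι → F, Q (fun i => σ (v i)) = σ (Q v)) :
    MulAut (Cfsg.POmega F Q) := cGam Q (fs Q σ hσ)

theorem eq_fl_of_isField {σ : F ≃+* F} (hσ : ∀ v : ι → F, Q (fun i => σ (v i)) = σ (Q v))
    {β : Cfsg.POmega F Q ≃* Cfsg.POmega F Q} (h : Cfsg.IsFieldAutPOmegaOf Q σ β) :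
    β = fl Q σ hσ := by
  apply eq_cGam_of_induced
  intro s s' e
  apply h
  rw [e]
  simp [fs]

theorem conj_fs (σ : F ≃+* F) (hσ : ∀ v : ι → F, Q (fun i => σ (v i)) = σ (Q v)) (g : ↥(GO Q)) :
    ∃ g' : ↥(GO Q), (g'.1 : GL ι F) = glMap σ g.1 ∧
      fs Q σ hσ * goIncl Q g * (fs Q σ hσ)⁻¹ = goIncl Q g' := by
  have hx : fs Q σ hσ * goIncl Q g * (fs Q σ hσ)⁻¹ ∈ (sigHom Q).ker := by
    have h1 : sigHom Q (goIncl Q g) = 1 := rfl
    rw [MonoidHom.mem_ker, map_mul, map_mul, map_inv, h1, mul_one, mul_inv_cancel]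
  rw [← range_goIncl] at hx
  obtain ⟨g', hg'⟩ := hx
  refine ⟨g', ?_, hg'.symm⟩
  have := congrArg (fun x : ↥(GamO Q) => x.1.left) hg'
  simpa [fs, goIncl_coe] using this

theorem fl_pow (σ : F ≃+* F) (hσ : ∀ v : ι → F, Q (fun i => σ (v i)) = σ (Q v)) (k : ℕ) :
    ((fs Q σ hσ) ^ k).1 = SemidirectProduct.inr (σ ^ k) := by
  rw [Subgroup.coe_pow, map_pow]
  rfl

end fn

section qf

variable [Fintype F] (Q : QuadraticForm F (ι → F))

theorem exists_smul_of_cG_eq_one (hQ : (polarBilin Q).Nondegenerate) (hd : 7 ≤ Fintype.card ι)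
    {g : ↥(GO ⇑Q)} (h : cG ⇑Q g = 1) : ∃ c : Fˣ, g = sc Q c := by
  rw [cG_eq_cGam] at h
  obtain ⟨-, c, hc⟩ := ker_cGam Q hQ hd _ h
  exact ⟨c, eq_of_coe_eq Q (by rw [sc_coe]; exact hc)⟩

theorem ker_cG (hQ : (polarBilin Q).Nondegenerate) (hd : 7 ≤ Fintype.card ι) :
    (cG ⇑Q).ker = (sc Q).range := by
  ext g
  constructor
  · intro h
    obtain ⟨c, rfl⟩ := exists_smul_of_cG_eq_one Q hQ hd h
    exact ⟨c, rfl⟩
  · rintro ⟨c, rfl⟩
    exact cG_sc Q c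

variable (σ : F ≃+* F) (hσ : ∀ v : ι → F, Q (fun i => σ (v i)) = σ (Q v))

theorem orderOf_fl (hQ : (polarBilin Q).Nondegenerate) (hd : 7 ≤ Fintype.card ι) :
    orderOf (fl ⇑Q σ hσ) = orderOf σ := by
  rw [orderOf_eq_orderOf_iff]
  intro n
  unfold fl
  rw [← map_pow]
  constructor
  · intro h
    have := (ker_cGam Q hQ hd _ h).1
    rw [fl_pow] at this
    exact this
  · intro h
    have : (fs ⇑Q σ hσ) ^ n = 1 := by
      apply Subtype.ext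
      rw [fl_pow, h]
      rfl
    rw [this, map_one]

theorem comm_fl_of_fixed (g : ↥(GO ⇑Q)) (h : mp σ g.1.1 = g.1.1) :
    cG ⇑Q g * fl ⇑Q σ hσ = fl ⇑Q σ hσ * cG ⇑Q g := by
  obtain ⟨g', h1, h2⟩ := conj_fs ⇑Q σ hσ g
  have h3 : g' = g := by
    apply eq_of_coe_eq
    rw [h1, coe_glMap]
    exact h
  rw [h3] at h2
  unfold fl
  rw [cG_eq_cGam, ← map_mul, ← map_mul]
  congr 1
  conv_lhs => rw [← h2]
  group

theorem eq_of_smul_eq_smul_GL [Nonempty ι] (g : GL ι F) {a b : F} (h : a • g.1 = b • g.1) :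
    a = b := by
  have h1 := congrArg (fun M => M * g⁻¹.1) h
  simp only [Matrix.smul_mul, Units.mul_inv] at h1
  obtain ⟨i⟩ := ‹Nonempty ι›
  have h2 := congrFun (congrFun h1 i) i
  simpa using h2

theorem exists_fixed_of_comm (hQ : (polarBilin Q).Nondegenerate) (hd : 7 ≤ Fintype.card ι)
    (g : ↥(GO ⇑Q)) (r : ℕ) (hr0 : 0 < r) (hr : orderOf σ = r)
    (h : cG ⇑Q g * fl ⇑Q σ hσ = fl ⇑Q σ hσ * cG ⇑Q g) :
    ∃ c : Fˣ, mp σ (sc Q c * g).1.1 = (sc Q c * g).1.1 := by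
  have hne : Nonempty ι := by
    rw [← Fintype.card_pos_iff]; omega
  have hσr : σ ^ r = 1 := by rw [← hr]; exact pow_orderOf_eq_one σ
  obtain ⟨g', h1, h2⟩ := conj_fs ⇑Q σ hσ g
  have h3 : cG ⇑Q g' = cG ⇑Q g := by
    rw [cG_eq_cGam, ← h2, map_mul, map_mul, map_inv, ← cG_eq_cGam]
    show fl ⇑Q σ hσ * cG ⇑Q g * (fl ⇑Q σ hσ)⁻¹ = _
    rw [← h, mul_assoc, mul_inv_cancel, mul_one]
  have h4 : cG ⇑Q (g' * g⁻¹) = 1 := by rw [map_mul, map_inv, h3, mul_inv_cancel]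
  obtain ⟨lam, hl⟩ := exists_smul_of_cG_eq_one Q hQ hd h4
  have h5 : g' = sc Q lam * g := by rw [← hl]; group
  have h6 : mp σ g.1.1 = (lam : F) • g.1.1 := by
    have := congrArg (fun x : ↥(GO ⇑Q) => (x.1 : Matrix ι ι F)) h5
    simp only [coe_mul', sc_coe, h1, coe_glMap] at this
    rw [mp_eq_map, this]
    simp
  have h7 := mp_pow_of_smul σ g.1.1 lam h6 r
  rw [hσr, mp_one] at h7
  have h8 : nrmS σ lam r = 1 :=
    (eq_of_smul_eq_smul_GL g.1 (by rw [one_smul]; exact h7)).symm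
  obtain ⟨c, hc0, hc⟩ := hilbert90_one σ lam r hr0 hr h8
  refine ⟨Units.mk0 c hc0, ?_⟩
  rw [coe_mul', sc_coe, Units.val_mk0, Matrix.smul_mul, Matrix.one_mul, mp_smul, h6, smul_smul,
    mul_comm, hc]

end qf

/-! ### the subfield subgroup -/

section sub

variable [Fintype F] {F₀ : Type*} [Field F₀] [Algebra F₀ F]
variable {Q₀ : QuadraticForm F₀ (ι → F₀)} {Q : QuadraticForm F (ι → F)}
variable (hc : ∀ v : ι → F₀, Q (rat F v) = algebraMap F₀ F (Q₀ v))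

/-- `GO(F₀) → Aut(PΩ(F))` -/
noncomputable def Th : ↥(GO ⇑Q₀) →* MulAut (Cfsg.POmega F ⇑Q) := (cG ⇑Q).comp (bcHom hc)

theorem Th_apply (g : ↥(GO ⇑Q₀)) : Th hc g = cG ⇑Q (bcHom hc g) := rfl

theorem ker_Th (hQ : (polarBilin Q).Nondegenerate) (hd : 7 ≤ Fintype.card ι) :
    (Th hc).ker = (sc Q₀).range := by
  have hne : Nonempty ι := by
    rw [← Fintype.card_pos_iff]; omega
  obtain ⟨i₀⟩ := hne
  ext g
  rw [MonoidHom.mem_ker, Th_apply]
  constructor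
  · intro h
    obtain ⟨a, ha'⟩ := exists_smul_of_cG_eq_one Q hQ hd h
    have ha : (g.1 : Matrix ι ι F₀).map (algebraMap F₀ F) = (a : F) • 1 := by
      rw [← bcHom_coe hc, ha', sc_coe]
    have h3 := congrFun (congrFun ha i₀) i₀
    rw [Matrix.map_apply, Matrix.smul_apply, Matrix.one_apply_eq, smul_eq_mul, mul_one] at h3
    have h0 : g.1.1 i₀ i₀ ≠ 0 := by
      intro h0
      rw [h0, map_zero] at h3
      exact a.ne_zero h3.symm
    refine ⟨Units.mk0 _ h0, ?_⟩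
    apply eq_of_coe_eq
    rw [sc_coe]
    ext i k
    have h2 := congrFun (congrFun ha i) k
    rw [Matrix.map_apply, Matrix.smul_apply] at h2
    rw [Matrix.smul_apply, Units.val_mk0]
    by_cases hik : i = k
    · subst hik
      rw [Matrix.one_apply_eq, smul_eq_mul, mul_one] at h2 ⊢
      exact (algebraMap F₀ F).injective (by rw [h2, h3])
    · rw [Matrix.one_apply_ne hik, smul_zero] at h2 ⊢
      exact ((algebraMap F₀ F).injective (by rw [h2, map_zero])).symm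
  · rintro ⟨c, rfl⟩
    rw [bcHom_sc, cG_sc]

theorem exists_descent (hv₀ : ∃ v, Q₀ v ≠ 0) (σ : F ≃+* F)
    (hfix : ∀ x, σ x = x ↔ x ∈ Set.range (algebraMap F₀ F)) (g : ↥(GO ⇑Q))
    (hg : mp σ g.1.1 = g.1.1) : ∃ g₀ : ↥(GO ⇑Q₀), bcHom hc g₀ = g := by
  have h3 : ∀ i k, ∃ y, algebraMap F₀ F y = g.1.1 i k := fun i k =>
    (hfix _).1 (congrFun (congrFun hg i) k)
  choose M₀ hM₀ using h3
  have hM : (Matrix.of M₀).map (algebraMap F₀ F) = g.1.1 := by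
    ext i k
    exact hM₀ i k
  have hdet : (Matrix.of M₀).det ≠ 0 := by
    intro h0
    have h4 := RingHom.map_det (algebraMap F₀ F) (Matrix.of M₀)
    rw [h0, map_zero] at h4
    have h5 : g.1.1.det ≠ 0 := by
      have := g.1.isUnit
      exact ((Matrix.isUnit_iff_isUnit_det _).1 this).ne_zero
    apply h5
    rw [← hM]
    exact h4.symm
  obtain ⟨v₀, hv₀⟩ := hv₀
  obtain ⟨μ, hμ⟩ := g.2
  have hkey : ∀ v : ι → F₀, algebraMap F₀ F (Q₀ (Matrix.of M₀ *ᵥ v)) =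
      (μ : F) * algebraMap F₀ F (Q₀ v) := by
    intro v
    rw [← hc, ← hc, ← map_mulVec_rat, hM]
    exact hμ _
  set e₀ : F₀ := Q₀ (Matrix.of M₀ *ᵥ v₀) / Q₀ v₀ with he₀
  have he : algebraMap F₀ F e₀ = μ := by
    rw [he₀, map_div₀, hkey]
    have : algebraMap F₀ F (Q₀ v₀) ≠ 0 := by
      intro h
      exact hv₀ ((algebraMap F₀ F).injective (by rw [h, map_zero]))
    field_simp
  have he0 : e₀ ≠ 0 := by
    intro h
    rw [h, map_zero] at he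
    exact μ.ne_zero he.symm
  refine ⟨⟨GeneralLinearGroup.mkOfDetNeZero (Matrix.of M₀) hdet, ⟨Units.mk0 e₀ he0, fun v => ?_⟩⟩, ?_⟩
  · apply (algebraMap F₀ F).injective
    rw [Units.val_mk0, map_mul, he]
    exact hkey v
  · apply eq_of_coe_eq
    rw [bcHom_coe]
    exact hM

variable (σ : F ≃+* F) (hσ : ∀ v : ι → F, Q (fun i => σ (v i)) = σ (Q v))

theorem map_Th_eq (hQ : (polarBilin Q).Nondegenerate) (hd : 7 ≤ Fintype.card ι)
    (hv₀ : ∃ v, Q₀ v ≠ 0)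
    (hfix : ∀ x, σ x = x ↔ x ∈ Set.range (algebraMap F₀ F)) (r : ℕ) (hr0 : 0 < r)
    (hr : orderOf σ = r) {C : Type*} [Group C] (Ψ : ↥(GO ⇑Q) →* C) (Ψ₀ : ↥(GO ⇑Q₀) →* C)
    (hcompat : ∀ g₀, Ψ (bcHom hc g₀) = Ψ₀ g₀) (hsc : ∀ c, Ψ (sc Q c) = 1) :
    Ψ₀.ker.map (Th hc) = Ψ.ker.map (cG ⇑Q) ⊓ Subgroup.centralizer {fl ⇑Q σ hσ} := by
  ext y
  constructor
  · rintro ⟨g, hg, rfl⟩
    refine ⟨⟨bcHom hc g, ?_, rfl⟩, ?_⟩
    · show Ψ _ = 1
      rw [hcompat]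
      exact hg
    · apply Subgroup.mem_centralizer_singleton_iff.2
      apply comm_fl_of_fixed
      ext i k
      exact (hfix _).2 ⟨g.1.1 i k, rfl⟩
  · rintro ⟨⟨g, hg, rfl⟩, h2⟩
    obtain ⟨c, hc1⟩ := exists_fixed_of_comm Q σ hσ hQ hd g r hr0 hr
      (Subgroup.mem_centralizer_singleton_iff.1 h2)
    obtain ⟨g₀, e⟩ := exists_descent hc hv₀ σ hfix _ hc1
    refine ⟨g₀, ?_, ?_⟩
    · show Ψ₀ g₀ = 1
      rw [← hcompat, e, map_mul, hsc, one_mul]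
      exact hg
    · rw [Th_apply, e, map_mul, cG_sc, one_mul]

theorem cent_equiv [Fintype F₀] (hQ : (polarBilin Q).Nondegenerate)
    (hQ₀ : (polarBilin Q₀).Nondegenerate) (hd : 7 ≤ Fintype.card ι)
    (hv₀ : ∃ v, Q₀ v ≠ 0)
    (hfix : ∀ x, σ x = x ↔ x ∈ Set.range (algebraMap F₀ F)) (r : ℕ) (hr0 : 0 < r)
    (hr : orderOf σ = r) {C : Type*} [Group C] (Ψ : ↥(GO ⇑Q) →* C) (Ψ₀ : ↥(GO ⇑Q₀) →* C)
    (hcompat : ∀ g₀, Ψ (bcHom hc g₀) = Ψ₀ g₀) (hsc : ∀ c, Ψ (sc Q c) = 1) :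
    Nonempty (↥(Ψ.ker.map (cG ⇑Q) ⊓ Subgroup.centralizer {fl ⇑Q σ hσ}) ≃*
      ↥(Ψ₀.ker.map (cG ⇑Q₀))) := by
  rw [← map_Th_eq hc σ hσ hQ hd hv₀ hfix r hr0 hr Ψ Ψ₀ hcompat hsc]
  have e1 : Ψ₀.ker.map (Th hc) = ((Th hc).comp Ψ₀.ker.subtype).range := by
    rw [MonoidHom.range_comp, Subgroup.range_subtype]
  have e2 : Ψ₀.ker.map (cG ⇑Q₀) = ((cG ⇑Q₀).comp Ψ₀.ker.subtype).range := by
    rw [MonoidHom.range_comp, Subgroup.range_subtype]
  have hk : ((Th hc).comp Ψ₀.ker.subtype).ker = ((cG ⇑Q₀).comp Ψ₀.ker.subtype).ker := by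
    rw [← MonoidHom.comap_ker, ← MonoidHom.comap_ker, ker_Th hc hQ hd, ker_cG Q₀ hQ₀ hd]
  exact ⟨(MulEquiv.subgroupCongr e1).trans
    ((QuotientGroup.quotientKerEquivRange _).symm.trans
      ((QuotientGroup.quotientMulEquivOfEq hk).trans
        ((QuotientGroup.quotientKerEquivRange _).trans (MulEquiv.subgroupCongr e2.symm))))⟩

end sub

end Cfsg.Agent.Lib.Helper59.OMinus
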