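import Mathlib
import Cfsg.Agent.Lib.Helper59.OMinus.Cent
import Cfsg.Agent.Lib.Helper6.OA.Diag
import Cfsg.Agent.Lib.Helper59.AutO.Cent

set_option autoImplicit false
set_option linter.unusedSectionVars false

/-!
# Minus type: the class character and base change from the fixed field
-/

namespace Cfsg.Agent.Lib.Helper59.OMinus

open Matrix QuadraticMap Module
open Cfsg.Agent.Lib.Helper6.OA Cfsg.Agent.Lib.Helper49 Cfsg.Agent.Lib.Helper18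

theorem c2_cases (x : Multiplicative (ZMod 2)) : x = 1 ∨ x = Multiplicative.ofAdd 1 := by
  revert x
  decide

theorem hom_eq_of {G : Type*} [Group G] (χ₁ χ₂ : G →* Multiplicative (ZMod 2))
    (h : ∀ g, χ₂ g = 1 → χ₁ g = 1) (t : G) (ht : χ₁ t ≠ 1) (g : G) : χ₁ g = χ₂ g := by
  have ht2 : χ₂ t ≠ 1 := fun h2 => ht (h t h2)
  have e1 : χ₁ t = Multiplicative.ofAdd 1 := (c2_cases _).resolve_left ht
  have e2 : χ₂ t = Multiplicative.ofAdd 1 := (c2_cases _).resolve_left ht2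
  rcases c2_cases (χ₂ g) with hg | hg
  · rw [hg, h g hg]
  · have h3 : χ₂ (g * t⁻¹) = 1 := by rw [map_mul, map_inv, hg, e2, mul_inv_cancel]
    have h4 := h _ h3
    rw [map_mul, map_inv, mul_inv_eq_one] at h4
    rw [h4, e1, hg]

variable {F : Type*} [Field F] [Fintype F] {F₀ : Type*} [Field F₀] [Fintype F₀] [Algebra F₀ F]
variable {m : ℕ}

theorem odd_card_of_two_ne (h2 : (2 : F) ≠ 0) : Odd (Fintype.card F) := by
  rw [Nat.odd_iff]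
  apply FiniteField.odd_card_of_char_ne_two
  intro h
  apply h2
  have := ringChar.Nat.cast_ringChar (R := F)
  rw [h] at this
  exact_mod_cast this

theorem exists_cls_compat (hm : 3 ≤ m) (a₀ b₀ : F₀)
    (hab₀ : ∀ z₁ z₂ : F₀, z₁ ^ 2 + a₀ * z₁ * z₂ + b₀ * z₂ ^ 2 = 0 → z₁ = 0 ∧ z₂ = 0)
    (hab : ∀ z₁ z₂ : F, z₁ ^ 2 + algebraMap F₀ F a₀ * z₁ * z₂ + algebraMap F₀ F b₀ * z₂ ^ 2 = 0 →
      z₁ = 0 ∧ z₂ = 0) :
    ∃ (Ψ : ↥(GO ⇑(minusQF m F (algebraMap F₀ F a₀) (algebraMap F₀ F b₀))) →*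
        Multiplicative (ZMod 2))
      (Ψ₀ : ↥(GO ⇑(minusQF m F₀ a₀ b₀)) →* Multiplicative (ZMod 2)),
      (∀ g, Ψ g = 1 ↔ Cfsg.PreservesSingularClassesMinus m (algebraMap F₀ F a₀)
        (algebraMap F₀ F b₀) (g.1 : Matrix ((Fin m ⊕ Fin m) ⊕ Fin 2) ((Fin m ⊕ Fin m) ⊕ Fin 2) F)) ∧
      (∀ g, Ψ₀ g = 1 ↔ Cfsg.PreservesSingularClassesMinus m a₀ b₀
        (g.1 : Matrix ((Fin m ⊕ Fin m) ⊕ Fin 2) ((Fin m ⊕ Fin m) ⊕ Fin 2) F₀)) ∧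
      (∀ c, Ψ (sc _ c) = 1) ∧
      (∀ g₀, Ψ (bcHom (minus_compat (m := m) (a := a₀) (b := b₀) F) g₀) = Ψ₀ g₀) := by
  obtain ⟨Ψ, h1, h2, h3⟩ := exists_clsMinus hm hab
  obtain ⟨Ψ₀, k1, k2, k3⟩ := exists_clsMinus hm hab₀
  refine ⟨Ψ, Ψ₀, h1, k1, h2, ?_⟩
  set hc := minus_compat (m := m) (a := a₀) (b := b₀) F with hhc
  obtain ⟨v₀, hv₀⟩ := minus_hv (m := m) a₀ b₀
  have hv : minusQF m F (algebraMap F₀ F a₀) (algebraMap F₀ F b₀) (rat F v₀) ≠ 0 := by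
    rw [hc]
    intro h
    exact hv₀ ((algebraMap F₀ F).injective (by rw [h, map_zero]))
  apply hom_eq_of (Ψ.comp (bcHom hc)) Ψ₀ _ (iO _ (refl (minusQF m F₀ a₀ b₀) v₀))
  · rw [MonoidHom.comp_apply, bcHom_iO_refl, h3 _ hv]
    exact ofAdd_one_ne_one
  · intro g hg
    rw [MonoidHom.comp_apply]
    by_cases h20 : (2 : F₀) = 0
    · rw [k1, preservesMinus_iff_char_two h20 hm hab₀] at hg
      obtain ⟨c, h, hh, rfl⟩ := hg
      rw [map_mul, map_mul, bcHom_sc, h2, one_mul]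
      exact Abelianization.commutator_subset_ker ((Ψ.comp (bcHom hc)).comp (iO _)) hh
    · have h2F : (2 : F) ≠ 0 := by
        intro h
        apply h20
        apply (algebraMap F₀ F).injective
        rw [map_zero, map_ofNat, h]
      obtain ⟨ν₀, -, -, D₀, -, -, S₀⟩ := setup_minus (odd_card_of_two_ne h20) hm a₀ b₀ hab₀
      obtain ⟨ν, -, -, D, -, -, S⟩ := setup_minus (odd_card_of_two_ne h2F) hm _ _ hab
      rw [k1, preservesMinus_iff S₀ hab₀] at hg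
      rw [h1, preservesMinus_iff S hab]
      exact (eps'_bc_eq_one_iff hc S₀.hv S.hv (m + 1) g).2 hg

/-- `q` odd, a non-square of `F₀` stays a non-square: `GO(F) = scalars · GO(F₀) · Ω(F)` -/
theorem decomp_of_setup {ι : Type} [Fintype ι] [DecidableEq ι]
    {Q₀ : QuadraticForm F₀ (ι → F₀)} {Q : QuadraticForm F (ι → F)}
    (hc : ∀ v : ι → F₀, Q (rat F v) = algebraMap F₀ F (Q₀ v))
    {k : ℕ} {ν₀ : F₀ˣ} {D₀ : ↥(GO ⇑Q₀)} {ν : Fˣ} {D : ↥(GO ⇑Q)}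
    (S₀ : Setup Q₀ k ν₀ D₀) (S : Setup Q k ν D)
    (hnsq : ¬ IsSquare (algebraMap F₀ F ν₀)) (g : ↥(GO ⇑Q)) :
    ∃ (l : Fˣ) (g₀ : ↥(GO ⇑Q₀)) (ω : ↥(Cfsg.isometryGroup F ⇑Q)),
      ω ∈ Cfsg.Omega F ⇑Q ∧ g = sc Q l * bcHom hc g₀ * iO Q ω := by
  have S' : Setup Q k (Units.map (algebraMap F₀ F : F₀ →* F) ν₀) (bcHom hc D₀) :=
    { h2 := S.h2
      nd := S.nd
      fr := S.fr
      hd := S.hd
      dim := S.dim
      nsq := hnsq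
      Dmul := fun v => sim_baseChange Q₀ Q hc (D₀.1 : Matrix ι ι F₀) ν₀ S₀.Dmul v
      Dsq := by rw [← map_mul, S₀.Dsq, bcHom_sc] }
  obtain ⟨u₀, hu₀⟩ := S₀.exists_norm 1
  obtain ⟨w₀, hw₀⟩ := S₀.exists_norm ν₀
  have hu : Q (rat F u₀) = (1 : F) ^ 2 := by rw [hc, hu₀]; simp
  have hw : Q (rat F w₀) = ((Units.map (algebraMap F₀ F : F₀ →* F) ν₀ : Fˣ) : F) * (1 : F) ^ 2 := by
    rw [hc, hw₀]; simp
  obtain ⟨p1, p2⟩ := sgn_pair_refl_sq Q S'.h2 S'.nsq one_ne_zero hu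
  obtain ⟨q1, q2⟩ := sgn_pair_refl_nonsq Q S'.h2 S'.nsq one_ne_zero hw
  have claim : ∀ h : ↥(Cfsg.isometryGroup F ⇑Q), ∃ (g₀ : ↥(GO ⇑Q₀)) (t : ↥(Cfsg.isometryGroup F ⇑Q)),
      bcHom hc g₀ = iO Q t ∧ sgn ⇑Q 1 t = sgn ⇑Q 1 h ∧
        sgn ⇑Q ((Units.map (algebraMap F₀ F : F₀ →* F) ν₀ : Fˣ) : F) t =
          sgn ⇑Q ((Units.map (algebraMap F₀ F : F₀ →* F) ν₀ : Fˣ) : F) h := by
    intro h
    rcases Int.units_eq_one_or (sgn ⇑Q 1 h) with e1 | e1 <;>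
    rcases Int.units_eq_one_or (sgn ⇑Q ((Units.map (algebraMap F₀ F : F₀ →* F) ν₀ : Fˣ) : F) h)
      with e2 | e2
    · exact ⟨1, 1, by simp, by rw [e1, map_one], by rw [e2, map_one]⟩
    · exact ⟨iO Q₀ (Helper18.refl Q₀ w₀), Helper18.refl Q (rat F w₀), bcHom_iO_refl hc w₀,
        by rw [e1, q1], by rw [e2, q2]⟩
    · exact ⟨iO Q₀ (Helper18.refl Q₀ u₀), Helper18.refl Q (rat F u₀), bcHom_iO_refl hc u₀,
        by rw [e1, p1], by rw [e2, p2]⟩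
    · refine ⟨iO Q₀ (Helper18.refl Q₀ u₀) * iO Q₀ (Helper18.refl Q₀ w₀),
        Helper18.refl Q (rat F u₀) * Helper18.refl Q (rat F w₀), ?_, ?_, ?_⟩
      · rw [map_mul, map_mul, bcHom_iO_refl, bcHom_iO_refl]
      · rw [map_mul, e1, p1, q1, mul_one]
      · rw [map_mul, e2, p2, q2, one_mul]
  have claim2 : ∀ h : ↥(Cfsg.isometryGroup F ⇑Q), ∃ (g₀ : ↥(GO ⇑Q₀))
      (ω : ↥(Cfsg.isometryGroup F ⇑Q)), ω ∈ Cfsg.Omega F ⇑Q ∧ iO Q h = bcHom hc g₀ * iO Q ω := by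
    intro h
    obtain ⟨g₀, t, e, s1, s2⟩ := claim h
    refine ⟨g₀, t⁻¹ * h, ?_, ?_⟩
    · rw [S'.mem_Omega_iff', map_mul, map_mul, map_inv, map_inv, s1, s2]
      simp
    · rw [e, ← map_mul]
      congr 1
      group
  obtain ⟨l, h, e | e⟩ := S'.cases g
  · obtain ⟨g₀, ω, hω, e2⟩ := claim2 h
    exact ⟨l, g₀, ω, hω, by rw [e, e2, mul_assoc]⟩
  · obtain ⟨g₀, ω, hω, e2⟩ := claim2 h
    exact ⟨l, D₀ * g₀, ω, hω, by rw [e, e2, map_mul]; group⟩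

end Cfsg.Agent.Lib.Helper59.OMinus
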