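import Mathlib
import Cfsg.Agent.Lib.Helper59.OMinus.Inst

set_option autoImplicit false
set_option linter.unusedSectionVars false

/-!
# Minus type: the standard field automorphism of prime order
-/

namespace Cfsg.Agent.Lib.Helper59.OMinus

open Matrix QuadraticMap Module
open Cfsg.Agent.Lib.Helper6.OA Cfsg.Agent.Lib.Helper49 Cfsg.Agent.Lib.Helper18

/-- `Inndiag` of the minus type group, for the bundled form -/
noncomputable abbrev IDm (m : ℕ) (F : Type*) [Field F] (a b : F) :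
    Subgroup (MulAut (Cfsg.POmega F ⇑(minusQF m F a b))) :=
  inndiagOf ⇑(minusQF m F a b) (Cfsg.PreservesSingularClassesMinus m a b)

theorem minus_sigma {F : Type*} [Field F] {m : ℕ} (σ : F ≃+* F) (a b : F) (ha : σ a = a)
    (hb : σ b = b) (v : (Fin m ⊕ Fin m) ⊕ Fin 2 → F) :
    minusQF m F a b (fun i => σ (v i)) = σ (minusQF m F a b v) := by
  rw [minusQF_coe]
  simp [Cfsg.quadFormMinus, ha, hb]

theorem card_idx (m : ℕ) : Fintype.card ((Fin m ⊕ Fin m) ⊕ Fin 2) = 2 * m + 2 := by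
  simp; ring

section alg

variable {F : Type*} [Field F] [Fintype F] {F₀ : Type*} [Field F₀] [Fintype F₀] [Algebra F₀ F]
variable {m : ℕ}

theorem aniso_descend (a₀ b₀ : F₀)
    (hab : ∀ z₁ z₂ : F, z₁ ^ 2 + algebraMap F₀ F a₀ * z₁ * z₂ + algebraMap F₀ F b₀ * z₂ ^ 2 = 0 →
      z₁ = 0 ∧ z₂ = 0) :
    ∀ z₁ z₂ : F₀, z₁ ^ 2 + a₀ * z₁ * z₂ + b₀ * z₂ ^ 2 = 0 → z₁ = 0 ∧ z₂ = 0 := by
  intro z₁ z₂ h
  have h1 := hab (algebraMap F₀ F z₁) (algebraMap F₀ F z₂) (by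
    rw [← map_pow, ← map_pow, ← map_mul, ← map_mul, ← map_mul, ← map_add, ← map_add, h, map_zero])
  exact ⟨(algebraMap F₀ F).injective (by rw [h1.1, map_zero]),
    (algebraMap F₀ F).injective (by rw [h1.2, map_zero])⟩

theorem finrank_ne_two (a₀ b₀ : F₀)
    (hab : ∀ z₁ z₂ : F, z₁ ^ 2 + algebraMap F₀ F a₀ * z₁ * z₂ + algebraMap F₀ F b₀ * z₂ ^ 2 = 0 →
      z₁ = 0 ∧ z₂ = 0) : finrank F₀ F ≠ 2 := by
  intro h4
  obtain ⟨α, β, -, hs, hp⟩ := Cfsg.Agent.S2679.exists_roots h4 a₀ b₀ (aniso_descend a₀ b₀ hab)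
  have := (hab α 1 (by rw [← hp]; linear_combination α * hs)).2
  exact one_ne_zero this

theorem split_of_setup {ι : Type} [Fintype ι] [DecidableEq ι]
    {Q₀ : QuadraticForm F₀ (ι → F₀)} {Q : QuadraticForm F (ι → F)}
    (hc : ∀ v : ι → F₀, Q (rat F v) = algebraMap F₀ F (Q₀ v))
    {k : ℕ} {ν₀ : F₀ˣ} {D₀ : ↥(GO ⇑Q₀)} {ν : Fˣ} {D : ↥(GO ⇑Q)}
    (S₀ : Setup Q₀ k ν₀ D₀) (S : Setup Q k ν D)
    (hnsq : ¬ IsSquare (algebraMap F₀ F ν₀))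
    (σ : F ≃+* F) (hfix : ∀ x, σ x = x ↔ x ∈ Set.range (algebraMap F₀ F))
    (hσQ : ∀ v : ι → F, Q (fun i => σ (v i)) = σ (Q v)) (g : ↥(GO ⇑Q)) :
    ∃ k ∈ Cfsg.Inn (Cfsg.POmega F ⇑Q),
      ∃ c, c * fl ⇑Q σ hσQ = fl ⇑Q σ hσQ * c ∧ cG ⇑Q g = k * c := by
  obtain ⟨l, g₀, ω, hω, e2⟩ := decomp_of_setup hc S₀ S hnsq g⁻¹
  have e3 : g = iO Q ω⁻¹ * bcHom hc g₀⁻¹ * sc Q l⁻¹ := by
    rw [← inv_inv g, e2, map_inv, map_inv, map_inv]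
    group
  refine ⟨cG ⇑Q (iO Q ω⁻¹), ?_, cG ⇑Q (bcHom hc g₀⁻¹), ?_, ?_⟩
  · rw [Inn_eq]
    exact ⟨_, ⟨ω⁻¹, inv_mem hω, rfl⟩, rfl⟩
  · apply comm_fl_of_fixed
    ext i k
    exact (hfix _).2 ⟨(g₀⁻¹).1.1 i k, rfl⟩
  · conv_lhs => rw [e3]
    rw [map_mul, map_mul, cG_sc, mul_one]

theorem cent_alg (hm : 3 ≤ m) (a₀ b₀ : F₀)
    (hab : ∀ z₁ z₂ : F, z₁ ^ 2 + algebraMap F₀ F a₀ * z₁ * z₂ + algebraMap F₀ F b₀ * z₂ ^ 2 = 0 →
      z₁ = 0 ∧ z₂ = 0)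
    (σ : F ≃+* F) (hfix : ∀ x, σ x = x ↔ x ∈ Set.range (algebraMap F₀ F))
    (hσQ : ∀ v : (Fin m ⊕ Fin m) ⊕ Fin 2 → F,
      minusQF m F (algebraMap F₀ F a₀) (algebraMap F₀ F b₀) (fun i => σ (v i)) =
        σ (minusQF m F (algebraMap F₀ F a₀) (algebraMap F₀ F b₀) v))
    {r : ℕ} (hr : 0 < r) (hσr : orderOf σ = r) :
    Nonempty (↥(IDm m F (algebraMap F₀ F a₀) (algebraMap F₀ F b₀) ⊓
      Subgroup.centralizer {fl ⇑(minusQF m F (algebraMap F₀ F a₀) (algebraMap F₀ F b₀)) σ hσQ}) ≃*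
        ↥(IDm m F₀ a₀ b₀)) := by
  have hd : 7 ≤ Fintype.card ((Fin m ⊕ Fin m) ⊕ Fin 2) := by rw [card_idx]; omega
  have hab₀ := aniso_descend a₀ b₀ hab
  obtain ⟨Ψ, Ψ₀, h1, k1, hsc, hcompat⟩ := exists_cls_compat (F := F) hm a₀ b₀ hab₀ hab
  have hID : IDm m F (algebraMap F₀ F a₀) (algebraMap F₀ F b₀) = Ψ.ker.map (cG _) :=
    inndiagOf_eq_map _ _ Ψ.ker (fun g => by rw [MonoidHom.mem_ker, h1])
  have hID₀ : IDm m F₀ a₀ b₀ = Ψ₀.ker.map (cG _) :=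
    inndiagOf_eq_map _ _ Ψ₀.ker (fun g => by rw [MonoidHom.mem_ker, k1])
  rw [hID, hID₀]
  exact cent_equiv (minus_compat (m := m) (a := a₀) (b := b₀) F) σ hσQ (minus_nd hab)
    (minus_nd hab₀) hd (minus_hv a₀ b₀) hfix r hr hσr Ψ Ψ₀ hcompat hsc

theorem split_alg (hm : 3 ≤ m) (a₀ b₀ : F₀)
    (hab : ∀ z₁ z₂ : F, z₁ ^ 2 + algebraMap F₀ F a₀ * z₁ * z₂ + algebraMap F₀ F b₀ * z₂ ^ 2 = 0 →
      z₁ = 0 ∧ z₂ = 0)
    (σ : F ≃+* F) (hfix : ∀ x, σ x = x ↔ x ∈ Set.range (algebraMap F₀ F))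
    (hσQ : ∀ v : (Fin m ⊕ Fin m) ⊕ Fin 2 → F,
      minusQF m F (algebraMap F₀ F a₀) (algebraMap F₀ F b₀) (fun i => σ (v i)) =
        σ (minusQF m F (algebraMap F₀ F a₀) (algebraMap F₀ F b₀) v))
    {r : ℕ} (hodd : Odd r) (hσr : orderOf σ = r)
    (d : MulAut (Cfsg.POmega F ⇑(minusQF m F (algebraMap F₀ F a₀) (algebraMap F₀ F b₀))))
    (hd' : d ∈ IDm m F (algebraMap F₀ F a₀) (algebraMap F₀ F b₀)) :
    ∃ k ∈ Cfsg.Inn (Cfsg.POmega F ⇑(minusQF m F (algebraMap F₀ F a₀) (algebraMap F₀ F b₀))),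
      ∃ c, c * fl ⇑(minusQF m F (algebraMap F₀ F a₀) (algebraMap F₀ F b₀)) σ hσQ =
        fl ⇑(minusQF m F (algebraMap F₀ F a₀) (algebraMap F₀ F b₀)) σ hσQ * c ∧ d = k * c := by
  have hab₀ := aniso_descend a₀ b₀ hab
  by_cases h2 : (2 : F₀) = 0
  · have h2F : (2 : F) = 0 := by
      have := congrArg (algebraMap F₀ F) h2
      rwa [map_ofNat, map_zero] at this
    have hd2 : d ∈ Cfsg.Inn _ := by
      rw [← inndiagOf_minus_char_two h2F hm hab]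
      exact hd'
    exact ⟨d, hd2, 1, by simp, by simp⟩
  · have h2F : (2 : F) ≠ 0 := by
      intro h
      apply h2
      apply (algebraMap F₀ F).injective
      rw [map_zero, map_ofNat, h]
    obtain ⟨ν₀, -, -, D₀, -, -, S₀⟩ := setup_minus (odd_card_of_two_ne h2) hm a₀ b₀ hab₀
    obtain ⟨ν, -, -, D, -, -, S⟩ := setup_minus (odd_card_of_two_ne h2F) hm _ _ hab
    obtain ⟨Ψ, h1, -, -⟩ := exists_clsMinus hm hab
    have hID : IDm m F (algebraMap F₀ F a₀) (algebraMap F₀ F b₀) = Ψ.ker.map (cG _) :=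
      inndiagOf_eq_map _ _ Ψ.ker (fun g => by rw [MonoidHom.mem_ker, h1])
    rw [hID] at hd'
    obtain ⟨g, -, rfl⟩ := hd'
    have hnsq : ¬ IsSquare (algebraMap F₀ F ν₀) :=
      Cfsg.Agent.Lib.Helper59.AutO.not_isSquare_of_odd (algebraMap F₀ F) h2F σ hfix r hodd
        (by rw [← hσr]; exact pow_orderOf_eq_one σ) ν₀ S₀.nsq
    exact split_of_setup (minus_compat (m := m) (a := a₀) (b := b₀) F) S₀ S hnsq σ hfix hσQ g

end alg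

theorem core {F : Type*} [Field F] [Fintype F] {p f : ℕ} [Fact p.Prime]
    (hF : Fintype.card F = p ^ f) (hf : 1 ≤ f) {m : ℕ} (hm : 3 ≤ m) (a b : F)
    (hab : ∀ z₁ z₂ : F, z₁ ^ 2 + a * z₁ * z₂ + b * z₂ ^ 2 = 0 → z₁ = 0 ∧ z₂ = 0)
    (σ : F ≃+* F) (ha : σ a = a) (hb : σ b = b)
    (φ : MulAut (Cfsg.POmega F ⇑(minusQF m F a b)))
    (hφ : Cfsg.IsFieldAutPOmegaOf ⇑(minusQF m F a b) σ φ) {r : ℕ} (hr : r.Prime)
    (hφr : orderOf φ = r) (F₀ : Type*) [Field F₀] [Fintype F₀]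
    (hF₀ : Fintype.card F₀ = p ^ (f / r)) :
    Odd r ∧ r ∣ f ∧
      (∃ a₀ b₀ : F₀, (∀ z₁ z₂ : F₀, z₁ ^ 2 + a₀ * z₁ * z₂ + b₀ * z₂ ^ 2 = 0 → z₁ = 0 ∧ z₂ = 0) ∧
        Nonempty (↥(IDm m F a b ⊓ Subgroup.centralizer {φ}) ≃* ↥(IDm m F₀ a₀ b₀))) ∧
      (∀ d ∈ IDm m F a b, ∃ k ∈ Cfsg.Inn (Cfsg.POmega F ⇑(minusQF m F a b)),
        ∃ c, c * φ = φ * c ∧ d = k * c) := by
  classical
  have hσQ := minus_sigma (m := m) σ a b ha hb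
  have hd : 7 ≤ Fintype.card ((Fin m ⊕ Fin m) ⊕ Fin 2) := by rw [card_idx]; omega
  have e : φ = fl ⇑(minusQF m F a b) σ hσQ := eq_fl_of_isField _ hσQ hφ
  have hσr : orderOf σ = r := by
    rw [← orderOf_fl (minusQF m F a b) σ hσQ (minus_nd hab) hd, ← e, hφr]
  obtain ⟨hdvd, hemb⟩ := Cfsg.Agent.Lib.Helper18.AutPSL.exists_subfield_emb hF σ hσr hr.pos
  obtain ⟨j, hj⟩ := hemb F₀ hF₀
  obtain ⟨A, hA⟩ : ∃ A : Algebra F₀ F, @algebraMap F₀ F _ _ A = j := ⟨j.toAlgebra, rfl⟩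
  have hfix : ∀ x, σ x = x ↔ x ∈ Set.range (algebraMap F₀ F) := by rw [hA]; exact hj
  obtain ⟨a₀, ha₀⟩ := (hfix a).1 ha
  obtain ⟨b₀, hb₀⟩ := (hfix b).1 hb
  subst ha₀ hb₀
  have hodd : Odd r := by
    rcases hr.eq_two_or_odd' with h2 | h2
    · exfalso
      subst h2
      have h1 := Module.card_eq_pow_finrank (K := F₀) (V := F)
      rw [hF, hF₀, ← pow_mul] at h1
      have h3 := Nat.pow_right_injective (Fact.out : p.Prime).two_le h1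
      obtain ⟨t, rfl⟩ := hdvd
      rw [Nat.mul_div_cancel_left t (by norm_num)] at h3
      apply finrank_ne_two a₀ b₀ hab
      have ht : 0 < t := by omega
      have : t * 2 = t * finrank F₀ F := by rw [mul_comm]; exact h3
      exact (Nat.eq_of_mul_eq_mul_left ht this).symm
    · exact h2
  refine ⟨hodd, hdvd, ⟨a₀, b₀, aniso_descend a₀ b₀ hab, ?_⟩, ?_⟩
  · rw [e]
    exact cent_alg hm a₀ b₀ hab σ hfix hσQ hr.pos hσr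
  · intro d hd'
    rw [e]
    exact split_alg hm a₀ b₀ hab σ hfix hσQ hodd hσr d hd'

end Cfsg.Agent.Lib.Helper59.OMinus
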