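import Mathlib
import Cfsg.Agent.Lib.Helper59.OMinus.Core
import Cfsg.Agent.Lib.Helper74.OPsi0
import Cfsg.Agent.Lib.Helper66.OLangC
import Cfsg.Agent.S2696

set_option autoImplicit false
set_option linter.unusedSectionVars false

/-!
# Minus type: every isomorphism between the groups of two minus forms carries `Inndiag` to `Inndiag`
-/

namespace Cfsg.Agent.Lib.Helper59.OMinus

open Matrix QuadraticMap Module
open Cfsg.Agent.Lib.Helper6.OA Cfsg.Agent.Lib.Helper49 Cfsg.Agent.Lib.Helper18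

section semi

variable {ι : Type} [Fintype ι] [DecidableEq ι] {F : Type*} [Field F]

theorem conj_inl (X : GamL ι F) (g : GL ι F) :
    X * SemidirectProduct.inl g * X⁻¹ = SemidirectProduct.inl (actGL X g) := by
  rw [actGL_apply]
  ext1
  · simp
  · simp

theorem det_glMap (τ : F ≃+* F) (g : GL ι F) :
    GeneralLinearGroup.det (glMap τ g) = Units.map (τ : F →* F) (GeneralLinearGroup.det g) := by
  apply Units.ext
  rw [GeneralLinearGroup.val_det_apply, coe_glMap, Units.coe_map, GeneralLinearGroup.val_det_apply]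
  exact ((τ : F →+* F).map_det _).symm

theorem det_actGL (X : GamL ι F) (g : GL ι F) :
    GeneralLinearGroup.det (actGL X g) =
      Units.map (X.right : F →* F) (GeneralLinearGroup.det g) := by
  rw [actGL_apply, map_mul, map_mul, map_inv, det_glMap, mul_comm, ← mul_assoc, inv_mul_cancel,
    one_mul]

theorem sim_actGL (Q Q' : (ι → F) → F) (X : GamL ι F) (c : Fˣ)
    (hX : ∀ v, Q' (semiFun X v) = c * X.right (Q v)) (g : GL ι F) (μ : F)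
    (hg : ∀ v, Q ((g : Matrix ι ι F) *ᵥ v) = μ * Q v) (v : ι → F) :
    Q' (((actGL X g : GL ι F) : Matrix ι ι F) *ᵥ v) = X.right μ * Q' v := by
  have h1 := actGL_mulVec X g (semiFun X⁻¹ v)
  rw [semiFun_semiFun_inv] at h1
  rw [h1, hX, hg, map_mul]
  conv_rhs => rw [← semiFun_semiFun_inv X v, hX]
  ring

theorem conj_psi (Q Q' : (ι → F) → F) (B : GL ι F)
    (ψ₀ : Cfsg.POmega F Q ≃* Cfsg.POmega F Q')
    (hψ₀ : ∀ (γ : ↥(GamO Q)) (γ' : ↥(GamO Q')),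
        γ'.1 = SemidirectProduct.inl B * γ.1 * (SemidirectProduct.inl B)⁻¹ →
        ∀ t, ψ₀ (cGam Q γ t) = cGam Q' γ' (ψ₀ t))
    (ψ : Cfsg.POmega F Q ≃* Cfsg.POmega F Q') (γ : ↥(GamO Q))
    (hγ : cGam Q γ = ψ.trans ψ₀.symm) (g : ↥(GO Q)) (g' : ↥(GO Q'))
    (hg' : g'.1 = actGL (SemidirectProduct.inl B * γ.1) g.1) :
    (ψ.symm.trans (cG Q g)).trans ψ = cG Q' g' := by
  ext t
  show ψ (cG Q g (ψ.symm t)) = _
  have e1 : ∀ s, ψ s = ψ₀ (cGam Q γ s) := by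
    intro s
    rw [hγ]
    simp
  have e2 : cGam Q γ (cG Q g (ψ.symm t)) =
      cGam Q (γ * goIncl Q g * γ⁻¹) (cGam Q γ (ψ.symm t)) := by
    rw [map_mul, map_mul, map_inv, ← cG_eq_cGam]
    simp
  rw [e1, e2, hψ₀ _ (goIncl Q' g'), ← e1, MulEquiv.apply_symm_apply, ← cG_eq_cGam]
  rw [goIncl_coe, hg', ← conj_inl]
  simp only [Subgroup.coe_mul, Subgroup.coe_inv, InvMemClass.coe_inv, goIncl_coe]
  group

end semi

section eps

variable {ι : Type} [Fintype ι] [DecidableEq ι] {F : Type*} [Field F]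

theorem eps'_actGL (Q Q' : QuadraticForm F (ι → F)) (hv : ∃ v, Q v ≠ 0) (hv' : ∃ v, Q' v ≠ 0)
    (k : ℕ) (X : GamL ι F) (c : Fˣ)
    (hX : ∀ v, Q' (semiFun X v) = c * X.right (Q v)) (g : ↥(GO ⇑Q)) (g' : ↥(GO ⇑Q'))
    (hg' : g'.1 = actGL X g.1) (h : eps' Q hv k g = 1) : eps' Q' hv' k g' = 1 := by
  have hmu : mu Q' hv' g' = Units.map (X.right : F →* F) (mu Q hv g) := by
    apply Units.ext
    apply mu_unique
    intro v
    rw [hg']
    exact sim_actGL ⇑Q ⇑Q' X c hX g.1 _ (mu_spec Q hv g) v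
  show GeneralLinearGroup.det g'.1 * ((mu Q' hv' g')⁻¹) ^ k = 1
  rw [hmu, hg', det_actGL, ← map_inv, ← map_pow, ← map_mul]
  have h' : GeneralLinearGroup.det g.1 * ((mu Q hv g)⁻¹) ^ k = 1 := h
  rw [h', map_one]

end eps

section minus

variable {F : Type*} [Field F] [Fintype F] {m : ℕ}

theorem exists_isometry (a b a' b' : F)
    (hab : ∀ z₁ z₂ : F, z₁ ^ 2 + a * z₁ * z₂ + b * z₂ ^ 2 = 0 → z₁ = 0 ∧ z₂ = 0)
    (hab' : ∀ z₁ z₂ : F, z₁ ^ 2 + a' * z₁ * z₂ + b' * z₂ ^ 2 = 0 → z₁ = 0 ∧ z₂ = 0) :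
    ∃ B : GL ((Fin m ⊕ Fin m) ⊕ Fin 2) F, ∀ v,
      minusQF m F a' b' ((B : Matrix ((Fin m ⊕ Fin m) ⊕ Fin 2) ((Fin m ⊕ Fin m) ⊕ Fin 2) F) *ᵥ v) =
        minusQF m F a b v := by
  have h1 := Cfsg.Agent.Lib.Helper50.Quad.card_sing_minus a b hab m
  have h2 := Cfsg.Agent.Lib.Helper50.Quad.card_sing_minus a' b' hab' m
  rw [Cfsg.Agent.Lib.Helper66.OLang.Qgen_eq_minusQF] at h1 h2
  have hfr : finrank F ((Fin m ⊕ Fin m) ⊕ Fin 2 → F) = 2 * (m + 1) := by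
    rw [Module.finrank_fintype_fun_eq_card, card_idx]; ring
  obtain ⟨g, hg⟩ := Cfsg.Agent.Lib.Helper50.Quad.iso_of_card_sing (Q := minusQF m F a b)
    (Q' := minusQF m F a' b') m hfr hfr
    (Cfsg.Agent.Lib.Helper50.Quad.nondeg_top (minus_nd hab))
    (Cfsg.Agent.Lib.Helper50.Quad.nondeg_top (minus_nd hab')) (by omega)
  refine ⟨⟨LinearMap.toMatrix' g.toLinearMap, LinearMap.toMatrix' g.symm.toLinearMap, ?_, ?_⟩,
    fun v => ?_⟩
  · rw [← LinearMap.toMatrix'_comp]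
    simp
  · rw [← LinearMap.toMatrix'_comp]
    simp
  · show minusQF m F a' b' (LinearMap.toMatrix' g.toLinearMap *ᵥ v) = _
    rw [LinearMap.toMatrix'_mulVec]
    exact hg v

theorem hub (hm : 3 ≤ m) (a b : F)
    (hab : ∀ z₁ z₂ : F, z₁ ^ 2 + a * z₁ * z₂ + b * z₂ ^ 2 = 0 → z₁ = 0 ∧ z₂ = 0) :
    Cfsg.gammaPOmega F ⇑(minusQF m F a b) = ⊤ := by
  rw [minusQF_coe]
  exact Cfsg.Agent.S2696.result hm a b hab

theorem transport_aux (hm : 3 ≤ m) (a b a' b' : F)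
    (hab : ∀ z₁ z₂ : F, z₁ ^ 2 + a * z₁ * z₂ + b * z₂ ^ 2 = 0 → z₁ = 0 ∧ z₂ = 0)
    (hab' : ∀ z₁ z₂ : F, z₁ ^ 2 + a' * z₁ * z₂ + b' * z₂ ^ 2 = 0 → z₁ = 0 ∧ z₂ = 0)
    (ψ : Cfsg.POmega F ⇑(minusQF m F a b) ≃* Cfsg.POmega F ⇑(minusQF m F a' b'))
    (d : MulAut (Cfsg.POmega F ⇑(minusQF m F a b))) (hd : d ∈ IDm m F a b) :
    (ψ.symm.trans d).trans ψ ∈ IDm m F a' b' := by
  by_cases h2 : (2 : F) = 0
  · rw [IDm, inndiagOf_minus_char_two h2 hm hab] at hd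
    rw [IDm, inndiagOf_minus_char_two h2 hm hab']
    obtain ⟨k, rfl⟩ := hd
    refine ⟨ψ k, ?_⟩
    ext t
    simp [MulAut.conj_apply]
  · obtain ⟨ν, -, -, D, -, -, S⟩ := setup_minus (odd_card_of_two_ne h2) hm a b hab
    obtain ⟨ν', -, -, D', -, -, S'⟩ := setup_minus (odd_card_of_two_ne h2) hm a' b' hab'
    rw [IDm, inndiagOf_minus S hab] at hd
    rw [IDm, inndiagOf_minus S' hab']
    obtain ⟨g, hg, rfl⟩ := hd
    have hg1 : eps' _ S.hv (m + 1) g = 1 := (S.eps_eq_one_iff g).1 hg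
    obtain ⟨B, hB⟩ := exists_isometry (m := m) a b a' b' hab hab'
    obtain ⟨ψ₀, hψ₀⟩ := Cfsg.Agent.Lib.Helper74.OPsi.exists_psi0 ⇑(minusQF m F a b)
      ⇑(minusQF m F a' b') B 1 (fun v => by rw [hB, Units.val_one, one_mul])
    have hα : (ψ.trans ψ₀.symm : MulAut (Cfsg.POmega F ⇑(minusQF m F a b))) ∈
        (cGam ⇑(minusQF m F a b)).range := by
      rw [← gammaPOmega_eq_range, hub hm a b hab]
      exact Subgroup.mem_top _
    obtain ⟨γ, hγ⟩ := hα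
    obtain ⟨c, hc⟩ := (mem_GamO _).1 γ.2
    have hX : ∀ v, minusQF m F a' b' (semiFun (SemidirectProduct.inl B * γ.1) v) =
        c * (SemidirectProduct.inl B * γ.1).right (minusQF m F a b v) := by
      intro v
      rw [semiFun_mul, semiFun_inl, hB, hc]
      simp
    obtain ⟨g', hg'⟩ : ∃ g' : ↥(GO ⇑(minusQF m F a' b')),
        g'.1 = actGL (SemidirectProduct.inl B * γ.1) g.1 :=
      ⟨⟨_, ⟨Units.map ((SemidirectProduct.inl B * γ.1).right : F →* F) (mu _ S.hv g), fun v =>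
        sim_actGL _ _ _ c hX g.1 _ (mu_spec _ S.hv g) v⟩⟩, rfl⟩
    have key := conj_psi _ _ B ψ₀ hψ₀ ψ γ hγ g g' hg'
    rw [key, S'.cG_mem_ID_iff, S'.eps_eq_one_iff]
    exact eps'_actGL _ _ S.hv S'.hv (m + 1) _ c hX g g' hg' hg1

theorem transport (hm : 3 ≤ m) (a b a' b' : F)
    (hab : ∀ z₁ z₂ : F, z₁ ^ 2 + a * z₁ * z₂ + b * z₂ ^ 2 = 0 → z₁ = 0 ∧ z₂ = 0)
    (hab' : ∀ z₁ z₂ : F, z₁ ^ 2 + a' * z₁ * z₂ + b' * z₂ ^ 2 = 0 → z₁ = 0 ∧ z₂ = 0)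
    (ψ : Cfsg.POmega F ⇑(minusQF m F a b) ≃* Cfsg.POmega F ⇑(minusQF m F a' b'))
    (d : MulAut (Cfsg.POmega F ⇑(minusQF m F a b))) :
    d ∈ inndiagOf ⇑(minusQF m F a b) (Cfsg.PreservesSingularClassesMinus m a b) ↔
      (ψ.symm.trans d).trans ψ ∈
        inndiagOf ⇑(minusQF m F a' b') (Cfsg.PreservesSingularClassesMinus m a' b') := by
  refine ⟨transport_aux hm a b a' b' hab hab' ψ d, fun h => ?_⟩
  have := transport_aux hm a' b' a b hab' hab ψ.symm _ h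
  have e : (ψ.symm.symm.trans ((ψ.symm.trans d).trans ψ)).trans ψ.symm = d := by
    ext t
    simp
  rwa [e] at this

end minus

end Cfsg.Agent.Lib.Helper59.OMinus
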