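import Mathlib
import Cfsg.Agent.Lib.Helper59.OMinus.Transport

set_option autoImplicit false
set_option linter.unusedSectionVars false

/-!
# Minus type: field automorphisms of prime order (assembly)
-/

namespace Cfsg.Agent.Lib.Helper59.OMinus

open Matrix QuadraticMap Module
open Cfsg.Agent.Lib.Helper6.OA Cfsg.Agent.Lib.Helper49 Cfsg.Agent.Lib.Helper18

theorem splitClassCount_eq_one {X : Type*} [Group X] (H K : Subgroup X) (x : X)
    (h : ∀ d ∈ H, ∃ k ∈ K, ∃ c, c * x = x * c ∧ d = k * c) :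
    Cfsg.splitClassCount H K x = 1 := by
  unfold Cfsg.splitClassCount
  rw [Nat.card_eq_one_iff_unique]
  have hx0 : Cfsg.IsConjUnder H x x := ⟨1, H.one_mem, by simp⟩
  have key : ∀ q : Quot (fun y z : {y : X // Cfsg.IsConjUnder H x y} =>
      Cfsg.IsConjUnder K y.1 z.1), q = Quot.mk _ ⟨x, hx0⟩ := by
    intro q
    induction q using Quot.ind with
    | _ y =>
      obtain ⟨y, d, hd, rfl⟩ := y
      obtain ⟨k, hk, c, hc, rfl⟩ := h d hd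
      symm
      apply Quot.sound
      refine ⟨k, hk, ?_⟩
      show k * c * x * (k * c)⁻¹ = k * x * k⁻¹
      rw [mul_assoc k c x, hc]
      group
  exact ⟨⟨fun a b => by rw [key a, key b]⟩, ⟨Quot.mk _ ⟨x, hx0⟩⟩⟩

/-- transport of a centraliser along an isomorphism of ambient groups -/
theorem cent_congr {X Y : Type*} [Group X] [Group Y] (Ψ : X ≃* Y) (D : Subgroup X)
    (D' : Subgroup Y) (hD : ∀ d, d ∈ D ↔ Ψ d ∈ D') (x : X) :
    Nonempty (↥(D ⊓ Subgroup.centralizer {x}) ≃* ↥(D' ⊓ Subgroup.centralizer {Ψ x})) := by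
  have h : (D ⊓ Subgroup.centralizer {x}).map (Ψ : X →* Y) =
      D' ⊓ Subgroup.centralizer {Ψ x} := by
    ext y
    constructor
    · rintro ⟨d, ⟨h1, h2⟩, rfl⟩
      refine ⟨(hD d).1 h1, ?_⟩
      have h3 := Subgroup.mem_centralizer_singleton_iff.1 h2
      apply Subgroup.mem_centralizer_singleton_iff.2
      show Ψ d * Ψ x = Ψ x * Ψ d
      rw [← map_mul, ← map_mul, h3]
    · rintro ⟨h1, h2⟩
      refine ⟨Ψ.symm y, ⟨(hD _).2 (by rwa [MulEquiv.apply_symm_apply]), ?_⟩, by simp⟩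
      have h3 := Subgroup.mem_centralizer_singleton_iff.1 h2
      apply Subgroup.mem_centralizer_singleton_iff.2
      apply Ψ.injective
      rw [map_mul, map_mul, MulEquiv.apply_symm_apply, h3]
  exact ⟨(Ψ.subgroupMap _).trans (MulEquiv.subgroupCongr h)⟩

theorem split_congr {G H : Type*} [Group G] [Group H] (ψ : G ≃* H) (D : Subgroup (MulAut G))
    (D' : Subgroup (MulAut H)) (hD : ∀ d, d ∈ D ↔ MulAut.congr ψ d ∈ D') (x : MulAut G)
    (hsplit : ∀ d ∈ D', ∃ k ∈ Cfsg.Inn H, ∃ c,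
      c * MulAut.congr ψ x = MulAut.congr ψ x * c ∧ d = k * c) :
    Cfsg.splitClassCount D (Cfsg.Inn G) x = 1 := by
  apply splitClassCount_eq_one
  intro d hd
  obtain ⟨k, ⟨t, rfl⟩, c, hc, e⟩ := hsplit _ ((hD d).1 hd)
  refine ⟨(MulAut.congr ψ).symm (MulAut.conj t), ⟨ψ.symm t, ?_⟩, (MulAut.congr ψ).symm c, ?_, ?_⟩
  · apply (MulAut.congr ψ).injective
    rw [MulEquiv.apply_symm_apply]
    ext s
    simp [MulAut.conj_apply]
  · apply (MulAut.congr ψ).injective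
    rw [map_mul, map_mul, MulEquiv.apply_symm_apply]
    exact hc
  · apply (MulAut.congr ψ).injective
    rw [map_mul, MulEquiv.apply_symm_apply, MulEquiv.apply_symm_apply]
    exact e

theorem main {F : Type*} [Field F] [Fintype F] {p f : ℕ} [Fact p.Prime]
    (hF : Fintype.card F = p ^ f) (hf : 1 ≤ f) {m : ℕ} (hm : 3 ≤ m) (a b : F)
    (hab : ∀ z₁ z₂ : F, z₁ ^ 2 + a * z₁ * z₂ + b * z₂ ^ 2 = 0 → z₁ = 0 ∧ z₂ = 0)
    (x : MulAut (Cfsg.POmega F ⇑(minusQF m F a b)))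
    (hx : ∃ (a' b' : F)
      (ψ : Cfsg.POmega F ⇑(minusQF m F a b) ≃* Cfsg.POmega F ⇑(minusQF m F a' b')) (σ : F ≃+* F),
      (∀ z₁ z₂ : F, z₁ ^ 2 + a' * z₁ * z₂ + b' * z₂ ^ 2 = 0 → z₁ = 0 ∧ z₂ = 0) ∧
      σ ≠ RingEquiv.refl F ∧ σ a' = a' ∧ σ b' = b' ∧
      Cfsg.IsFieldAutPOmegaOf ⇑(minusQF m F a' b') σ ((ψ.symm.trans x).trans ψ))
    {r : ℕ} (hr : r.Prime) (hxr : orderOf x = r) (F₀ : Type*) [Field F₀] [Fintype F₀]
    (hF₀ : Fintype.card F₀ = p ^ (f / r)) :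
    Odd r ∧ r ∣ f ∧
      (∃ a₀ b₀ : F₀, (∀ z₁ z₂ : F₀, z₁ ^ 2 + a₀ * z₁ * z₂ + b₀ * z₂ ^ 2 = 0 → z₁ = 0 ∧ z₂ = 0) ∧
        Nonempty (↥(IDm m F a b ⊓ Subgroup.centralizer {x}) ≃* ↥(IDm m F₀ a₀ b₀))) ∧
      Cfsg.splitClassCount (IDm m F a b) (Cfsg.Inn (Cfsg.POmega F ⇑(minusQF m F a b))) x = 1 := by
  obtain ⟨a', b', ψ, σ, hab', -, ha', hb', hφ⟩ := hx
  have hΨ : ∀ d, MulAut.congr ψ d = (ψ.symm.trans d).trans ψ := fun d => rfl
  have hord : orderOf ((ψ.symm.trans x).trans ψ) = r := by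
    rw [← hΨ, MulEquiv.orderOf_eq, hxr]
  obtain ⟨hodd, hdvd, ⟨a₀, b₀, hab₀, ⟨E⟩⟩, hsplit⟩ :=
    core hF hf hm a' b' hab' σ ha' hb' _ hφ hr hord F₀ hF₀
  have htr : ∀ d, d ∈ IDm m F a b ↔ MulAut.congr ψ d ∈ IDm m F a' b' := fun d =>
    transport hm a b a' b' hab hab' ψ d
  refine ⟨hodd, hdvd, ⟨a₀, b₀, hab₀, ?_⟩, ?_⟩
  · obtain ⟨E1⟩ := cent_congr (MulAut.congr ψ) _ _ htr x
    exact ⟨E1.trans E⟩
  · exact split_congr ψ _ _ htr x hsplit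

end Cfsg.Agent.Lib.Helper59.OMinus
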